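import Cfsg.Agent.SolubPSL.Criterion

/-!
Counting the elements that generate a solvable subgroup together with a fixed element of
`SL(2, F)`, via the trace coordinates.
-/

set_option autoImplicit false
set_option linter.unusedSectionVars false
set_option linter.style.haveILetI false

namespace Cfsg.Agent.SolubPSL

open Matrix Cfsg.Agent.Linear.Classes
open scoped MatrixGroups

variable {F : Type*} [Field F] [Fintype F]

local notation "M2" => Matrix (Fin 2) (Fin 2) F
local notation "L2" => Matrix.ProjectiveSpecialLinearGroup (Fin 2) F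
local notation "q" => Fintype.card F

/-! ### A common eigenvector -/

/-- The stabiliser of the line through `(1, w)`. -/
def lineStab (w : F) : Subgroup SL(2, F) where
  carrier := {m | (m : M2) 1 0 + (m : M2) 1 1 * w = ((m : M2) 0 0 + (m : M2) 0 1 * w) * w}
  one_mem' := by simp
  mul_mem' := by
    intro a b ha hb
    simp only [Set.mem_ofPred_eq, Matrix.SpecialLinearGroup.coe_mul, Matrix.mul_apply,
      Fin.sum_univ_two] at *
    linear_combination ((b : M2) 0 0 + (b : M2) 0 1 * w) * ha +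
      ((a : M2) 1 1 - (a : M2) 0 1 * w) * hb
  inv_mem' := by
    intro a ha
    simp only [Set.mem_ofPred_eq, Matrix.SpecialLinearGroup.coe_inv, Matrix.adjugate_fin_two,
      Matrix.of_apply, Matrix.cons_val', Matrix.cons_val_zero, Matrix.cons_val_one,
      Matrix.empty_val', Matrix.cons_val_fin_one] at *
    linear_combination -ha

theorem mem_lineStab {w : F} {m : SL(2, F)} :
    m ∈ lineStab w ↔ (m : M2) 1 0 + (m : M2) 1 1 * w = ((m : M2) 0 0 + (m : M2) 0 1 * w) * w :=
  Iff.rfl

theorem lineStab_solvable (w : F) : Group.IsSolvable (lineStab w) := by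
  have hne : ∀ m : lineStab w, (m.1 : M2) 0 0 + (m.1 : M2) 0 1 * w ≠ 0 := by
    intro m h0
    have h1 := m.1.det_coe
    rw [Matrix.det_fin_two] at h1
    have h2 := mem_lineStab.1 m.2
    rw [h0, zero_mul] at h2
    exact one_ne_zero (α := F)
      (by linear_combination (m.1 : M2) 1 1 * h0 - (m.1 : M2) 0 1 * h2 - h1)
  let χ : lineStab w →* Fˣ := MonoidHom.mk' (fun m => Units.mk0 _ (hne m)) fun a b => by
    ext
    simp only [Units.val_mk0, Units.val_mul, Subgroup.coe_mul, Matrix.SpecialLinearGroup.coe_mul,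
      Matrix.mul_apply, Fin.sum_univ_two]
    linear_combination (a.1 : M2) 0 1 * mem_lineStab.1 b.2
  haveI : Group.IsSolvable χ.ker := Group.isSolvable_of_comm fun a b => by
    have key : ∀ m : χ.ker, (m.1.1 : M2) 0 0 = 1 - (m.1.1 : M2) 0 1 * w ∧
        (m.1.1 : M2) 1 1 = 1 + (m.1.1 : M2) 0 1 * w ∧
        (m.1.1 : M2) 1 0 = -((m.1.1 : M2) 0 1 * w * w) := by
      intro m
      have h0 : (m.1.1 : M2) 0 0 + (m.1.1 : M2) 0 1 * w = 1 :=
        congrArg Units.val (MonoidHom.mem_ker.1 m.2)
      have h2 := mem_lineStab.1 m.1.2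
      rw [h0, one_mul] at h2
      have h1 := m.1.1.det_coe
      rw [Matrix.det_fin_two] at h1
      have hd : (m.1.1 : M2) 1 1 = 1 + (m.1.1 : M2) 0 1 * w := by
        linear_combination h1 - (m.1.1 : M2) 1 1 * h0 + (m.1.1 : M2) 0 1 * h2
      exact ⟨by linear_combination h0, hd, by linear_combination h2 - w * hd⟩
    obtain ⟨a1, a2, a3⟩ := key a
    obtain ⟨b1, b2, b3⟩ := key b
    apply Subtype.ext
    apply Subtype.ext
    apply Subtype.ext
    show (a.1.1 : M2) * (b.1.1 : M2) = (b.1.1 : M2) * (a.1.1 : M2)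
    ext i j
    fin_cases i <;> fin_cases j <;>
      simp [Matrix.mul_apply, Fin.sum_univ_two, a1, a2, a3, b1, b2, b3] <;> ring
  haveI : Group.IsSolvable Fˣ := Group.isSolvable_of_comm mul_comm
  exact Group.isSolvable_of_ker_le_range χ.ker.subtype χ (by rw [Subgroup.range_subtype])

theorem solv_of_line {g h : SL(2, F)} (w : F) (hg : g ∈ lineStab w) (hh : h ∈ lineStab w) :
    Solv g h := by
  haveI := lineStab_solvable w
  have hle : Subgroup.closure ({g, h} : Set SL(2, F)) ≤ lineStab w := by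
    rw [Subgroup.closure_le]; rintro x (rfl | rfl) <;> assumption
  exact Group.isSolvable_of_isSolvable_injective (f := Subgroup.inclusion hle)
    (Subgroup.inclusion_injective hle)

theorem solv_of_commute {g h : SL(2, F)} (hc : (g : M2) * (h : M2) = (h : M2) * (g : M2)) :
    Solv g h := solvable_commute (Subtype.ext hc)

/-! ### Reductions -/

/-- Conjugation by a matrix of nonzero determinant. -/
noncomputable def conjSL (P : GL (Fin 2) F) : SL(2, F) ≃* SL(2, F) where
  toFun A := ⟨(P : M2) * (A : M2) * ((P⁻¹ : GL (Fin 2) F) : M2), by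
    rw [Matrix.det_units_conj]; exact A.det_coe⟩
  invFun A := ⟨((P⁻¹ : GL (Fin 2) F) : M2) * (A : M2) * (P : M2), by
    rw [Matrix.det_units_conj']; exact A.det_coe⟩
  left_inv A := Subtype.ext <| by
    show ((P⁻¹ : GL (Fin 2) F) : M2) * ((P : M2) * (A : M2) * ((P⁻¹ : GL (Fin 2) F) : M2)) * (P : M2) = _
    simp [Matrix.mul_assoc]
  right_inv A := Subtype.ext <| by
    show (P : M2) * (((P⁻¹ : GL (Fin 2) F) : M2) * (A : M2) * (P : M2)) * ((P⁻¹ : GL (Fin 2) F) : M2) = _
    simp [Matrix.mul_assoc]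
  map_mul' A B := Subtype.ext <| by
    show (P : M2) * (((A * B : SL(2, F)) : M2)) * ((P⁻¹ : GL (Fin 2) F) : M2) =
      ((P : M2) * (A : M2) * ((P⁻¹ : GL (Fin 2) F) : M2)) *
        ((P : M2) * (B : M2) * ((P⁻¹ : GL (Fin 2) F) : M2))
    simp [Matrix.mul_assoc]

theorem card_solv_congr {g g₀ : SL(2, F)} (hg : Nonscalar (g : M2)) (hg₀ : Nonscalar (g₀ : M2))
    (ht : tr g = tr g₀) :
    Nat.card {h // Solv g h} = Nat.card {h // Solv g₀ h} := by
  obtain ⟨P, hP, he⟩ := exists_intertwiner hg hg₀ ht (by rw [g.det_coe, g₀.det_coe])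
  let U := Matrix.GeneralLinearGroup.mkOfDetNeZero P hP
  have hU : conjSL U g₀ = g := Subtype.ext <| by
    show (U : M2) * (g₀ : M2) * ((U⁻¹ : GL (Fin 2) F) : M2) = _
    rw [show (U : M2) * (g₀ : M2) = (g : M2) * (U : M2) from he.symm, Matrix.mul_assoc,
      ← Units.val_mul, mul_inv_cancel, Units.val_one, Matrix.mul_one]
  refine Nat.card_congr ((conjSL U).toEquiv.subtypeEquiv fun h => ?_).symm
  rw [← Solv.map_iff (conjSL U) g₀ h, hU]
  rfl

theorem card_solv_proj (g : SL(2, F)) :
    Nat.gcd 2 (q - 1) *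
      Nat.card {y : L2 // Group.IsSolvable ↥(Subgroup.closure ({proj g, y} : Set L2))} =
      Nat.card {h : SL(2, F) // Solv g h} := by
  set T : Set L2 := {y | Group.IsSolvable ↥(Subgroup.closure ({proj g, y} : Set L2))}
  have e := QuotientGroup.preimageMkEquivSubgroupProdSet (Subgroup.center SL(2, F)) T
  have hc : Nat.card (Subgroup.center SL(2, F)) = Nat.gcd 2 (q - 1) := by
    rw [Linear.card_center_SL]
    simp
  rw [← hc]
  refine (Nat.card_prod _ _).symm.trans ((Nat.card_congr e).symm.trans ?_)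
  exact Nat.card_congr (Equiv.subtypeEquivRight fun h => (solv_iff_proj g h).symm)

/-! ### Fibres of the norm form -/

theorem card_nf_fiber {t : F} (ht : (2 : F) = 0 ∨ t ^ 2 ≠ 4 * 1) {c : F} (hc : c ≠ 0) :
    Nat.card {z : F × F // normForm t 1 z = c} = Nat.card {z : F × F // normForm t 1 z = 1} := by
  let m : F × F → F × F → F × F := fun x y =>
    (x.1 * y.1 - x.2 * y.2, x.1 * y.2 + x.2 * y.1 + t * (x.2 * y.2))
  have hmul : ∀ x y, normForm t 1 (m x y) = normForm t 1 x * normForm t 1 y := by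
    intro x y; simp only [normForm, m]; ring
  have key : ∀ a b : F, a ≠ 0 → Nat.card {z : F × F // normForm t 1 z = b} ≤
      Nat.card {z : F × F // normForm t 1 z = a * b} := by
    intro a b ha
    obtain ⟨u, hu⟩ := exists_normForm_eq ht a
    refine Nat.card_le_card_of_injective (fun x => ⟨m u x.1, by rw [hmul, x.2, hu]⟩) ?_
    rintro ⟨x, _⟩ ⟨y, _⟩ hxy
    have h1 := congrArg (fun s => s.1.1) hxy
    have h2 := congrArg (fun s => s.1.2) hxy
    simp only [m] at h1 h2
    simp only [normForm] at hu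
    have e1 : a * (x.1 - y.1) = 0 := by
      rw [← hu]; linear_combination (u.1 + t * u.2) * h1 + u.2 * h2
    have e2 : a * (x.2 - y.2) = 0 := by
      rw [← hu]; linear_combination u.1 * h2 - u.2 * h1
    exact Subtype.ext (Prod.ext (sub_eq_zero.1 ((mul_eq_zero.1 e1).resolve_left ha))
      (sub_eq_zero.1 ((mul_eq_zero.1 e2).resolve_left ha)))
  refine le_antisymm ?_ ?_
  · have := key c⁻¹ c (inv_ne_zero hc)
    rwa [inv_mul_cancel₀ hc] at this
  · have := key c 1 hc
    rwa [mul_one] at this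

/-- The number of points on a conic `x² + t x y + y² = c ≠ 0`, from the number of zeros. -/
theorem nf_counts (t : F) (ht : t ^ 2 ≠ 4) :
    ((∀ r : F, r ^ 2 - t * r + 1 ≠ 0) ∧ Nat.card {z : F × F // normForm (-t) 1 z = 0} = 1 ∧
      ∀ c : F, c ≠ 0 → Nat.card {z : F × F // normForm (-t) 1 z = c} = q + 1) ∨
    ((∃ r : F, r ^ 2 - t * r + 1 = 0) ∧
      Nat.card {z : F × F // normForm (-t) 1 z = 0} + 1 = 2 * q ∧
      ∀ c : F, c ≠ 0 → Nat.card {z : F × F // normForm (-t) 1 z = c} = q - 1) := by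
  have hd : (2 : F) = 0 ∨ (-t) ^ 2 ≠ 4 * 1 := Or.inr (by rwa [neg_sq, mul_one])
  have hns : Nonscalar ((companionSL (-t) : SL(2, F)) : M2) := companion_nonscalar _ _
  have htr : ((companionSL (-t) : SL(2, F)) : M2).trace = -t := trace_companion _ _
  have fib : ∀ c : F, c ≠ 0 → Nat.card {z : F × F // normForm (-t) 1 z = c} =
      Nat.card (Subgroup.centralizer ({companionSL (-t)} : Set SL(2, F))) := by
    intro c hc
    rw [card_nf_fiber hd hc, ← Nat.card_congr (centralizerSLEquiv hns), htr]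
  rcases centralizer_SL_cases hns with ⟨h, hc⟩ | ⟨⟨r, hr, hr2⟩, hc⟩ | ⟨⟨r, hr, hr2⟩, -⟩
  · rw [htr] at h
    exact Or.inl ⟨fun r e => h (-r) (by linear_combination e), card_zero_of_no_root h,
      fun c hc' => (fib c hc').trans hc⟩
  · rw [htr] at hr hr2
    exact Or.inr ⟨⟨-r, by linear_combination hr⟩, card_zero_of_two_roots hr hr2,
      fun c hc' => (fib c hc').trans hc⟩
  · rw [htr] at hr2
    exact absurd (show t ^ 2 = 4 by linear_combination (2 * r - t) * hr2 + 4 * hr) ht

/-! ### Semisimple elements -/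

/-- The value of the norm form at the trace coordinates. -/
def kap (t : F) (z : F × F) : F := z.1 ^ 2 + z.2 ^ 2 - t * z.1 * z.2 + t ^ 2 - 4

/-- Trace coordinates with respect to the companion matrix. -/
noncomputable def coord {t : F} (ht : t ^ 2 ≠ 4) :
    SL(2, F) ≃ {w : (F × F) × (F × F) // normForm (-t) 1 w.2 = kap t w.1} := by
  let L : M2 → (F × F) × (F × F) := fun m =>
    ((m 0 0 + m 1 1, -(m 1 0) + m 0 1 + t * m 1 1), (m 0 0 - m 1 1 + t * m 1 0, m 0 1 + m 1 0))
  have hne : (4 : F) - t ^ 2 ≠ 0 := sub_ne_zero.2 (Ne.symm ht)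
  have hinj : Function.Injective L := by
    intro m m' h
    simp only [L, Prod.mk.injEq] at h
    obtain ⟨⟨h1, h2⟩, h3, h4⟩ := h
    set a := m 0 0 - m' 0 0
    set b := m 0 1 - m' 0 1
    set c := m 1 0 - m' 1 0
    set d := m 1 1 - m' 1 1
    have e1 : a + d = 0 := by linear_combination h1
    have e2 : -c + b + t * d = 0 := by linear_combination h2
    have e3 : a - d + t * c = 0 := by linear_combination h3
    have e4 : b + c = 0 := by linear_combination h4
    have hd : (4 - t ^ 2) * d = 0 := by linear_combination 2 * e1 - 2 * e3 - t * e2 + t * e4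
    have hd0 : d = 0 := (mul_eq_zero.1 hd).resolve_left hne
    have ha0 : a = 0 := by linear_combination e1 - hd0
    have hb : (4 - t ^ 2) * b = 0 := by
      linear_combination t * e3 + (2 - t ^ 2) * e4 + 2 * e2 - t * ha0 + (t - 2 * t) * hd0
    have hb0 : b = 0 := (mul_eq_zero.1 hb).resolve_left hne
    have hc0 : c = 0 := by linear_combination e4 - hb0
    ext i j
    fin_cases i <;> fin_cases j
    exacts [sub_eq_zero.1 ha0, sub_eq_zero.1 hb0, sub_eq_zero.1 hc0, sub_eq_zero.1 hd0]
  have hsurj : Function.Surjective L := by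
    intro w
    let E : M2 ≃ (F × F) × (F × F) :=
      { toFun := fun m => ((m 0 0, m 0 1), (m 1 0, m 1 1))
        invFun := fun z => !![z.1.1, z.1.2; z.2.1, z.2.2]
        left_inv := fun m => by ext i j; fin_cases i <;> fin_cases j <;> rfl
        right_inv := fun z => rfl }
    obtain ⟨x, hx⟩ := Finite.surjective_of_injective (f := L ∘ E.symm)
      (hinj.comp E.symm.injective) w
    exact ⟨_, hx⟩
  have hdet : ∀ m : M2, normForm (-t) 1 (L m).2 - kap t (L m).1 = (t ^ 2 - 4) * (m.det - 1) := by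
    intro m
    simp only [L, normForm, kap, Matrix.det_fin_two]
    ring
  refine (Equiv.subtypeEquiv (Equiv.ofBijective L ⟨hinj, hsurj⟩) fun m => ?_)
  show m.det = 1 ↔ normForm (-t) 1 (L m).2 = kap t (L m).1
  rw [← sub_eq_zero (a := normForm (-t) 1 (L m).2), hdet, mul_eq_zero,
    or_iff_right (sub_ne_zero.2 ht), sub_eq_zero]

theorem coord_val {t : F} (ht : t ^ 2 ≠ 4) (h : SL(2, F)) :
    (coord ht h).1 = (((h : M2) 0 0 + (h : M2) 1 1,
      -((h : M2) 1 0) + (h : M2) 0 1 + t * (h : M2) 1 1),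
      ((h : M2) 0 0 - (h : M2) 1 1 + t * (h : M2) 1 0, (h : M2) 0 1 + (h : M2) 1 0)) := rfl

theorem coord_traces {t : F} (ht : t ^ 2 ≠ 4) (h : SL(2, F)) :
    tr (companionSL t) = t ∧ tr h = (coord ht h).1.1.1 ∧
      tr (companionSL t * h) = (coord ht h).1.1.2 := by
  refine ⟨trace_companion _ _, Matrix.trace_fin_two _, ?_⟩
  rw [coord_val, tr, Matrix.SpecialLinearGroup.coe_mul, companionSL_val, Matrix.trace_fin_two,
    Matrix.mul_apply, Matrix.mul_apply, Fin.sum_univ_two, Fin.sum_univ_two]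
  simp [companion]
  ring

theorem tri_iff_kap (t : F) (z : F × F) : Tri t z.1 z.2 ↔ kap t z = 0 := by
  unfold Tri kap
  constructor <;> intro h <;> linear_combination h

theorem solv_of_kap {t : F} (ht : t ^ 2 ≠ 4) {h : SL(2, F)} (hk : kap t (coord ht h).1.1 = 0) :
    Solv (companionSL t) h := by
  have heq := (coord ht h).2
  rw [hk, coord_val] at heq
  simp only [normForm, one_mul] at heq
  set δ := (h : M2) 0 0 - (h : M2) 1 1 + t * (h : M2) 1 0 with hδ
  set β := (h : M2) 0 1 + (h : M2) 1 0 with hβ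
  by_cases hb : β = 0
  · have hd : δ = 0 := by
      rw [hb] at heq
      exact pow_eq_zero_iff (n := 2) two_ne_zero |>.1 (by linear_combination heq)
    refine solv_of_commute ?_
    rw [companionSL_val]
    ext i j
    fin_cases i <;> fin_cases j <;>
      simp [companion, Matrix.mul_apply, Fin.sum_univ_two]
    · linear_combination -hb
    · linear_combination hd - t * hb
    · linear_combination hd
    · linear_combination hb
  · obtain ⟨r, hr⟩ : ∃ r, δ = r * β := ⟨δ / β, (div_mul_cancel₀ _ hb).symm⟩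
    have hroot : r ^ 2 - t * r + 1 = 0 := by
      refine (mul_eq_zero.1 (show (r ^ 2 - t * r + 1) * β ^ 2 = 0 from ?_)).resolve_right
        (pow_ne_zero _ hb)
      rw [hr] at heq
      linear_combination heq
    refine solv_of_line (-r) ?_ ?_
    · rw [mem_lineStab, companionSL_val]
      simp [companion]
      linear_combination hroot
    · rw [mem_lineStab]
      linear_combination r * hr + β * hroot - r * hδ + (1 - t * r) * hβ - (h : M2) 0 1 * hroot

theorem kap_of_commute {t : F} (ht : t ^ 2 ≠ 4) {h : SL(2, F)}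
    (hc : ((companionSL t : SL(2, F)) : M2) * (h : M2) = (h : M2) * ((companionSL t : SL(2, F)) : M2)) :
    kap t (coord ht h).1.1 = 0 := by
  rw [← (coord ht h).2, coord_val]
  rw [companionSL_val] at hc
  have h00 := congrFun (congrFun hc 0) 0
  have h10 := congrFun (congrFun hc 1) 0
  simp [companion, Matrix.mul_apply, Fin.sum_univ_two] at h00 h10
  have e1 : (h : M2) 0 1 + (h : M2) 1 0 = 0 := by linear_combination -h00
  have e2 : (h : M2) 0 0 - (h : M2) 1 1 + t * (h : M2) 1 0 = 0 := by linear_combination h10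
  simp [normForm, e1, e2]

variable (p : ℕ) [Fact p.Prime] [CharP F p]

theorem solv_companion_iff (h8 : p ≠ 2 → ¬ 8 ∣ Nat.card L2) {t : F} (ht : t ^ 2 ≠ 4)
    (h : SL(2, F)) :
    Solv (companionSL t) h ↔ kap t (coord ht h).1.1 = 0 ∨
      Dih t (coord ht h).1.1.1 (coord ht h).1.1.2 ∨ Tet t (coord ht h).1.1.1 (coord ht h).1.1.2 := by
  obtain ⟨e1, e2, e3⟩ := coord_traces ht h
  constructor
  · intro hs
    have := Solv.cases p h8 (companion_nonscalar _ _) hs
    rw [e1, e2, e3, tri_iff_kap] at this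
    exact this.elim (fun hc => Or.inl (kap_of_commute ht hc)) id
  · rintro (hk | hr)
    · exact solv_of_kap ht hk
    · exact shape_of_traces (by rwa [e1, e2, e3])

/-- The count, given the extra admissible trace pairs `T`, none of which has `kap = 0`. -/
theorem card_solv_companion (h8 : p ≠ 2 → ¬ 8 ∣ Nat.card L2) {t : F} (ht : t ^ 2 ≠ 4)
    (T : Set (F × F)) (hT : ∀ z, (kap t z = 0 ∨ Dih t z.1 z.2 ∨ Tet t z.1 z.2) ↔ kap t z = 0 ∨ z ∈ T)
    (hT0 : ∀ z ∈ T, kap t z ≠ 0) (n : ℕ)
    (hn : ∀ c : F, c ≠ 0 → Nat.card {z : F × F // normForm (-t) 1 z = c} = n) :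
    Nat.card {h // Solv (companionSL t) h} =
      {z | kap t z = 0}.ncard * Nat.card {z : F × F // normForm (-t) 1 z = 0} + T.ncard * n := by
  classical
  have e : {h // Solv (companionSL t) h} ≃
      {w : {w : (F × F) × (F × F) // normForm (-t) 1 w.2 = kap t w.1} //
        kap t w.1.1 = 0 ∨ w.1.1 ∈ T} :=
    (coord ht).subtypeEquiv fun h => (solv_companion_iff p h8 ht h).trans (hT _)
  let U : Set (F × F) := {z | kap t z = 0} ∪ T
  have e2 : {w : {w : (F × F) × (F × F) // normForm (-t) 1 w.2 = kap t w.1} //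
        kap t w.1.1 = 0 ∨ w.1.1 ∈ T} ≃ Σ z : U, {y : F × F // normForm (-t) 1 y = kap t z.1} :=
    { toFun := fun w => ⟨⟨w.1.1.1, w.2⟩, ⟨w.1.1.2, w.1.2⟩⟩
      invFun := fun s => ⟨⟨(s.1.1, s.2.1), s.2.2⟩, s.1.2⟩
      left_inv := fun w => rfl
      right_inv := fun s => rfl }
  rw [Nat.card_congr (e.trans e2), Nat.card_sigma]
  have hs : ∀ f : F × F → ℕ, ∑ z : U, f z.1 = ∑ z ∈ U.toFinset, f z :=
    fun f => (Finset.sum_subtype U.toFinset (fun _ => Set.mem_toFinset) f).symm
  have hdis : Disjoint ({z | kap t z = 0} : Set (F × F)).toFinset T.toFinset :=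
    Set.disjoint_toFinset.2 (Set.disjoint_left.2 fun z hz hzT => hT0 z hzT hz)
  rw [hs fun z => Nat.card {y : F × F // normForm (-t) 1 y = kap t z},
    show U.toFinset = ({z | kap t z = 0} : Set (F × F)).toFinset ∪ T.toFinset by ext z; simp [U],
    Finset.sum_union hdis,
    Finset.sum_congr rfl (g := fun _ => Nat.card {z : F × F // normForm (-t) 1 z = 0})
      (fun z hz => by rw [show kap t z = 0 by simpa using hz]),
    Finset.sum_congr rfl (g := fun _ => n) (fun z hz => hn _ (hT0 z (Set.mem_toFinset.1 hz))),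
    Finset.sum_const, Finset.sum_const, smul_eq_mul, smul_eq_mul, ← Set.ncard_eq_toFinset_card',
    ← Set.ncard_eq_toFinset_card']

theorem ncard_kap_zero {t : F} (ht : t ^ 2 ≠ 4) (n : ℕ)
    (hn : ∀ c : F, c ≠ 0 → Nat.card {z : F × F // normForm (-t) 1 z = c} = n) :
    {z : F × F | kap t z = 0}.ncard = n := by
  rw [← Nat.card_coe_set_eq]
  refine Eq.trans ?_ (hn (4 - t ^ 2) (sub_ne_zero.2 (Ne.symm ht)))
  refine Nat.card_congr (Equiv.subtypeEquivRight fun z => ?_)
  show kap t z = 0 ↔ _
  simp only [kap, normForm, one_mul]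
  constructor <;> intro h <;> linear_combination h

/-- Semisimple elements of order other than `2`, `3` (up to sign). -/
theorem card_solv_generic (h8 : p ≠ 2 → ¬ 8 ∣ Nat.card L2) {t : F} (ht : t ^ 2 ≠ 4) (h0 : t ≠ 0)
    (h1 : t ^ 2 ≠ 1 ∨ (2 : F) = 0) :
    ((∀ r : F, r ^ 2 - t * r + 1 ≠ 0) ∧ Nat.card {h // Solv (companionSL t) h} = 2 * (q + 1)) ∨
    ((∃ r : F, r ^ 2 - t * r + 1 = 0) ∧
      Nat.card {h // Solv (companionSL t) h} = 2 * q * (q - 1)) := by
  have hk0 : kap t ((0, 0) : F × F) ≠ 0 := by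
    simp only [kap]; intro h; exact ht (by linear_combination h)
  have hT : ∀ z, (kap t z = 0 ∨ Dih t z.1 z.2 ∨ Tet t z.1 z.2) ↔
      kap t z = 0 ∨ z ∈ ({(0, 0)} : Set (F × F)) := by
    rintro ⟨u, v⟩
    simp only [Set.mem_singleton_iff, Prod.mk.injEq, Dih, Tet, kap]
    constructor
    · rintro (h | (⟨a, -⟩ | ⟨a, -⟩ | h) | ⟨a, -⟩ | ⟨hu, a, hv⟩ | ⟨a, hu, hv⟩)
      · exact Or.inl h
      · exact absurd a h0
      · exact absurd a h0
      · exact Or.inr h
      · exact absurd a h0
      · rcases h1 with h1 | h1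
        · exact absurd a h1
        · left; rw [hu]; linear_combination a + hv - h1
      · rcases h1 with h1 | h1
        · exact absurd a h1
        · left
          rcases hv with hv | hv
          · rw [hv]; linear_combination a + hu - h1
          · rw [← sub_eq_zero.1 hv]; linear_combination a + hu - h1
    · rintro (h | h)
      · exact Or.inl h
      · exact Or.inr (Or.inl (Or.inr (Or.inr h)))
  have key := fun n hn => (card_solv_companion p h8 ht {(0, 0)} hT
    (by rintro z rfl; exact hk0) n hn).trans (by rw [ncard_kap_zero ht n hn, Set.ncard_singleton])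
  have hq : 2 ≤ q := Fintype.one_lt_card
  rcases nf_counts t ht with ⟨hr, hz, hn⟩ | ⟨hr, hz, hn⟩
  · refine Or.inl ⟨hr, (key _ hn).trans ?_⟩
    rw [hz]; ring
  · refine Or.inr ⟨hr, (key _ hn).trans ?_⟩
    rw [show Nat.card {z : F × F // normForm (-t) 1 z = 0} = 2 * q - 1 by omega]
    obtain ⟨k, hk⟩ : ∃ k, q = k + 1 := ⟨q - 1, by omega⟩
    rw [hk, show 2 * (k + 1) - 1 = 2 * k + 1 by omega, Nat.add_sub_cancel]
    ring

/-! ### Unipotent elements -/

/-- The standard transvection. -/
def unip : SL(2, F) := ⟨!![1, 1; 0, 1], by simp [Matrix.det_fin_two]⟩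

theorem unip_nonscalar : Nonscalar ((unip : SL(2, F)) : M2) := fun c h => by
  have := congrFun (congrFun h 0) 1
  simp [unip] at this

theorem tr_unip : tr (unip : SL(2, F)) = 2 := by
  simp [tr, unip, Matrix.trace_fin_two]; norm_num

/-- The count for a unipotent element, given the extra admissible pairs `(trace, lower-left entry)`. -/
theorem card_solv_unip (h8 : p ≠ 2 → ¬ 8 ∣ Nat.card L2) (T : Set (F × F))
    (hT : ∀ u c : F, c ≠ 0 → ((Dih 2 u (u + c) ∨ Tet 2 u (u + c)) ↔ (u, c) ∈ T))
    (hT0 : ∀ z ∈ T, z.2 ≠ 0) :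
    Nat.card {h // Solv (unip : SL(2, F)) h} = q * (q - 1) + T.ncard * q := by
  classical
  have traces : ∀ h : SL(2, F), tr h = (h : M2) 0 0 + (h : M2) 1 1 ∧
      tr (unip * h) = (h : M2) 0 0 + (h : M2) 1 1 + (h : M2) 1 0 := by
    intro h
    refine ⟨Matrix.trace_fin_two _, ?_⟩
    rw [tr, Matrix.SpecialLinearGroup.coe_mul, Matrix.trace_fin_two, Matrix.mul_apply,
      Matrix.mul_apply, Fin.sum_univ_two, Fin.sum_univ_two]
    simp [unip]
    ring
  have iff0 : ∀ h : SL(2, F), Solv unip h ↔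
      (h : M2) 1 0 = 0 ∨ ((h : M2) 0 0 + (h : M2) 1 1, (h : M2) 1 0) ∈ T := by
    intro h
    obtain ⟨e1, e2⟩ := traces h
    by_cases hc : (h : M2) 1 0 = 0
    · simp only [hc, true_or, iff_true]
      refine solv_of_line 0 ?_ ?_
      · rw [mem_lineStab]; simp [unip]
      · rw [mem_lineStab]; simp [hc]
    · rw [or_iff_right hc, ← hT _ _ hc]
      constructor
      · intro hs
        have := Solv.cases p h8 unip_nonscalar hs
        rw [tr_unip, e1, e2] at this
        rcases this with h' | h' | h'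
        · refine absurd ?_ hc
          have := congrFun (congrFun h' 0) 0
          simp [unip, Matrix.mul_apply, Fin.sum_univ_two] at this
          exact this
        · refine absurd (pow_eq_zero_iff (n := 2) two_ne_zero |>.1 ?_) hc
          unfold Tri at h'
          linear_combination h'
        · exact h'
      · intro h'
        exact shape_of_traces (by rwa [tr_unip, e1, e2])
  have eB : {h : SL(2, F) // (h : M2) 1 0 = 0} ≃ Fˣ × F :=
    { toFun := fun h => (Units.mk0 ((h.1 : M2) 0 0) (fun e => by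
          have := h.1.det_coe
          rw [Matrix.det_fin_two, e, h.2, zero_mul, mul_zero, sub_zero] at this
          exact zero_ne_one this), (h.1 : M2) 0 1)
      invFun := fun z => ⟨⟨!![(z.1 : F), z.2; 0, ((z.1⁻¹ : Fˣ) : F)], by simp [Matrix.det_fin_two]⟩, rfl⟩
      left_inv := fun h => by
        apply Subtype.ext; apply Subtype.ext
        ext i j
        fin_cases i <;> fin_cases j
        · rfl
        · rfl
        · exact h.2.symm
        · have := h.1.det_coe
          rw [Matrix.det_fin_two, h.2, mul_zero, sub_zero] at this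
          simpa using inv_eq_of_mul_eq_one_right this
      right_inv := fun z => Prod.ext (Units.ext rfl) rfl }
  have eT : {h : SL(2, F) // ((h : M2) 0 0 + (h : M2) 1 1, (h : M2) 1 0) ∈ T} ≃ T × F :=
    { toFun := fun h => (⟨_, h.2⟩, (h.1 : M2) 0 0)
      invFun := fun z => ⟨⟨!![z.2, (z.2 * (z.1.1.1 - z.2) - 1) / z.1.1.2; z.1.1.2, z.1.1.1 - z.2], by
          simp [Matrix.det_fin_two, div_mul_cancel₀ _ (hT0 _ z.1.2)]⟩, by
          simp⟩
      left_inv := fun h => by
        apply Subtype.ext; apply Subtype.ext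
        have hc := hT0 _ h.2
        have hd := h.1.det_coe
        rw [Matrix.det_fin_two] at hd
        ext i j
        fin_cases i <;> fin_cases j <;> simp
        rw [div_eq_iff hc]
        linear_combination hd
      right_inv := fun z => by simp }
  have hsplit : {h // Solv (unip : SL(2, F)) h} ≃ {h : SL(2, F) // (h : M2) 1 0 = 0} ⊕
      {h : SL(2, F) // ((h : M2) 0 0 + (h : M2) 1 1, (h : M2) 1 0) ∈ T} :=
    (Equiv.subtypeEquivRight iff0).trans (subtypeOrEquiv _ _ (by
      rw [Pi.disjoint_iff]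
      intro h
      rw [Prop.disjoint_iff]
      rintro ⟨hc, hT'⟩
      exact hT0 _ hT' hc))
  rw [Nat.card_congr hsplit, Nat.card_sum, Nat.card_congr eB, Nat.card_congr eT, Nat.card_prod,
    Nat.card_prod, Nat.card_units, Nat.card_eq_fintype_card (α := F), Nat.card_coe_set_eq]
  ring

end Cfsg.Agent.SolubPSL
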