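import Cfsg.Agent.SolubPSL.Pair
import Cfsg.Agent.Linear.ClassesPSL
import Cfsg.Agent.MaxSub.Dickson.Maximal
import Cfsg.Agent.Linear.Transvection

/-!
When two elements of `SL(2, F)` generate a solvable group: a criterion in terms of traces.
-/

set_option autoImplicit false
set_option linter.unusedSectionVars false
set_option linter.style.haveILetI false

namespace Cfsg.Agent.SolubPSL

open Matrix Cfsg.Agent.Linear.Classes Cfsg.Agent.MaxSub.Dickson MulAction
open scoped MatrixGroups OnePoint

variable {F : Type*} [Field F] [Fintype F]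

local notation "M2" => Matrix (Fin 2) (Fin 2) F
local notation "L2" => Matrix.ProjectiveSpecialLinearGroup (Fin 2) F

/-- Two elements generate a solvable subgroup of `SL(2, F)`. -/
def Solv (g h : SL(2, F)) : Prop := Group.IsSolvable ↥(Subgroup.closure ({g, h} : Set SL(2, F)))

theorem solv_iff_proj (g h : SL(2, F)) :
    Solv g h ↔ Group.IsSolvable ↥(Subgroup.closure ({proj g, proj h} : Set L2)) := by
  have hmap : (Subgroup.closure ({g, h} : Set SL(2, F))).map proj =
      Subgroup.closure ({proj g, proj h} : Set L2) := by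
    rw [MonoidHom.map_closure, Set.image_pair]
  set C := Subgroup.closure ({g, h} : Set SL(2, F)) with hC
  let f := (proj (F := F)).subgroupMap C
  have hf : Function.Surjective f := MonoidHom.subgroupMap_surjective _ _
  constructor
  · intro hs
    haveI : Group.IsSolvable C := hs
    have : Group.IsSolvable (C.map (proj (F := F))) := Group.isSolvable_of_surjective hf
    rwa [hmap] at this
  · intro hs
    rw [← hmap] at hs
    haveI := hs
    haveI : Group.IsSolvable f.ker := Group.isSolvable_of_comm fun a b => by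
      apply Subtype.ext
      apply Subtype.ext
      have ha : ((a : C) : SL(2, F)) ∈ Subgroup.center SL(2, F) :=
        (QuotientGroup.eq_one_iff _).1 (congrArg Subtype.val (MonoidHom.mem_ker.1 a.2))
      exact (Subgroup.mem_center_iff.1 ha _).symm
    exact Group.isSolvable_of_ker_le_range f.ker.subtype f (by rw [Subgroup.range_subtype])

theorem Solv.map_iff (e : SL(2, F) ≃* SL(2, F)) (g h : SL(2, F)) :
    Solv (e g) (e h) ↔ Solv g h := by
  have hmap : (Subgroup.closure ({g, h} : Set SL(2, F))).map e.toMonoidHom =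
      Subgroup.closure ({e g, e h} : Set SL(2, F)) := by
    rw [MonoidHom.map_closure, Set.image_pair]; rfl
  let ψ := ((Subgroup.closure ({g, h} : Set SL(2, F))).equivMapOfInjective e.toMonoidHom
    e.injective).trans (MulEquiv.subgroupCongr hmap)
  exact ⟨fun hs => by
      haveI : Group.IsSolvable ↥(Subgroup.closure ({e g, e h} : Set SL(2, F))) := hs
      exact Group.isSolvable_of_surjective (f := ψ.symm.toMonoidHom) ψ.symm.surjective,
    fun hs => by
      haveI : Group.IsSolvable ↥(Subgroup.closure ({g, h} : Set SL(2, F))) := hs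
      exact Group.isSolvable_of_surjective (f := ψ.toMonoidHom) ψ.surjective⟩

/-- The trace. -/
abbrev tr (g : SL(2, F)) : F := (g : M2).trace

theorem proj_sq_eq_one {g : SL(2, F)} (hg : Nonscalar (g : M2)) :
    proj g ^ 2 = 1 ↔ tr g = 0 := by
  rw [← map_pow, proj_eq_one_iff]
  constructor
  · intro hs
    obtain ⟨c, -, hc⟩ := scalar_SL hs
    rw [Matrix.SpecialLinearGroup.coe_pow, pow_two, cayley_hamilton] at hc
    by_contra ht
    refine hg ((tr g)⁻¹ * (c + 1)) ?_
    have h1 : tr g • (g : M2) = (c + 1) • (1 : M2) := by linear_combination (norm := module) hc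
    rw [← smul_smul, ← h1, smul_smul, inv_mul_cancel₀ ht, one_smul]
  · intro ht hn
    refine hn (-1) ?_
    rw [Matrix.SpecialLinearGroup.coe_pow, pow_two, cayley_hamilton, show (g : M2).trace = 0 from ht]
    simp

theorem proj_cube_eq_one {g : SL(2, F)} (hg : Nonscalar (g : M2)) :
    proj g ^ 3 = 1 ↔ tr g ^ 2 = 1 := by
  rw [← map_pow, proj_eq_one_iff]
  have e : ((g ^ 3 : SL(2, F)) : M2) = (tr g ^ 2 - 1) • (g : M2) - tr g • (1 : M2) := by
    rw [Matrix.SpecialLinearGroup.coe_pow, pow_succ, pow_two, cayley_hamilton, Matrix.sub_mul,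
      Matrix.smul_mul, cayley_hamilton, Matrix.one_mul, smul_sub, smul_smul, pow_two]
    module
  constructor
  · intro hs
    obtain ⟨c, -, hc⟩ := scalar_SL hs
    rw [e] at hc
    by_contra ht
    refine hg ((tr g ^ 2 - 1)⁻¹ * (c + tr g)) ?_
    have h1 : (tr g ^ 2 - 1) • (g : M2) = (c + tr g) • (1 : M2) := by
      linear_combination (norm := module) hc
    rw [← smul_smul, ← h1, smul_smul, inv_mul_cancel₀ (sub_ne_zero.2 ht), one_smul]
  · intro ht hn
    refine hn (-(tr g)) ?_
    rw [e, ht, sub_self, zero_smul, zero_sub, neg_smul]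

theorem tr_inv_mul (g h : SL(2, F)) : tr (g⁻¹ * h) = tr g * tr h - tr (g * h) := by
  simp only [tr, Matrix.SpecialLinearGroup.coe_mul, Matrix.SpecialLinearGroup.coe_inv,
    Matrix.adjugate_fin_two, Matrix.trace_fin_two, Matrix.mul_apply, Fin.sum_univ_two,
    Matrix.cons_val', Matrix.cons_val_zero, Matrix.cons_val_one, Matrix.empty_val',
    Matrix.cons_val_fin_one, Matrix.of_apply]
  ring

/-- The Fricke expression vanishes: the commutator has trace two. -/
def Tri (t u v : F) : Prop := t ^ 2 + u ^ 2 + v ^ 2 - t * u * v = 4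

/-- Two of the three traces vanish. -/
def Dih (t u v : F) : Prop := (t = 0 ∧ u = 0) ∨ (t = 0 ∧ v = 0) ∨ (u = 0 ∧ v = 0)

/-- The traces of a generating pair of `A₄`. -/
def Tet (t u v : F) : Prop :=
  (t = 0 ∧ u ^ 2 = 1 ∧ v ^ 2 = 1) ∨ (u = 0 ∧ t ^ 2 = 1 ∧ v ^ 2 = 1) ∨
    (t ^ 2 = 1 ∧ u ^ 2 = 1 ∧ (v = 0 ∨ t * u - v = 0))

theorem commute_or_traces {g h : SL(2, F)} (hg : Nonscalar (g : M2))
    (hs : PairShape (proj g) (proj h)) :
    (g : M2) * (h : M2) = (h : M2) * (g : M2) ∨ Dih (tr g) (tr h) (tr (g * h)) ∨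
      Tet (tr g) (tr h) (tr (g * h)) := by
  by_cases hc : (g : M2) * (h : M2) = (h : M2) * (g : M2)
  · exact Or.inl hc
  have hsc : ∀ {x : SL(2, F)}, ¬ Nonscalar (x : M2) → ∀ y : SL(2, F),
      (x : M2) * (y : M2) = (y : M2) * (x : M2) := by
    intro x hx y
    obtain ⟨c, -, hc⟩ := scalar_SL hx
    simp [hc]
  have hh : Nonscalar (h : M2) := by
    by_contra hn
    exact hc (hsc hn g).symm
  have hgh : Nonscalar ((g * h : SL(2, F)) : M2) := by
    by_contra hn
    refine hc ?_
    obtain ⟨c, -, he⟩ := scalar_SL hn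
    rw [Matrix.SpecialLinearGroup.coe_mul] at he
    rw [he, show (h : M2) * (g : M2) = c • (1 : M2) from ?_]
    have h2 : ((g⁻¹ * (g * h) * g : SL(2, F)) : M2) = c • (1 : M2) := by
      rw [Matrix.SpecialLinearGroup.coe_mul, Matrix.SpecialLinearGroup.coe_mul,
        Matrix.SpecialLinearGroup.coe_mul g h, he]
      simp only [Matrix.mul_smul, Matrix.mul_one, Matrix.smul_mul]
      rw [← Matrix.SpecialLinearGroup.coe_mul, inv_mul_cancel, Matrix.SpecialLinearGroup.coe_one]
    rw [show g⁻¹ * (g * h) * g = h * g by group, Matrix.SpecialLinearGroup.coe_mul] at h2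
    exact h2
  have hgih : Nonscalar ((g⁻¹ * h : SL(2, F)) : M2) := by
    by_contra hn
    refine hc ?_
    obtain ⟨c, -, he⟩ := scalar_SL hn
    have h2 : (h : M2) = c • (g : M2) := by
      rw [show h = g * (g⁻¹ * h) by group, Matrix.SpecialLinearGroup.coe_mul, he]
      simp
    rw [h2]; simp
  rcases hs with hs | hs | hs
  · -- the images commute
    have hp : proj (g * h) = proj (h * g) := by rw [map_mul, map_mul]; exact hs
    rw [proj_eq_iff, Matrix.SpecialLinearGroup.coe_mul, Matrix.SpecialLinearGroup.coe_mul] at hp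
    rcases hp with hp | hp
    · exact absurd hp.symm hc
    by_cases h2 : (2 : F) = 0
    · refine absurd ?_ hc
      rw [hp]
      ext i j
      simp only [Matrix.neg_apply]
      linear_combination ((g : M2) * (h : M2)) i j * h2
    have hgi : ((g⁻¹ : SL(2, F)) : M2) * (g : M2) = 1 := by
      rw [← Matrix.SpecialLinearGroup.coe_mul, inv_mul_cancel, Matrix.SpecialLinearGroup.coe_one]
    have hhi : ((h⁻¹ : SL(2, F)) : M2) * (h : M2) = 1 := by
      rw [← Matrix.SpecialLinearGroup.coe_mul, inv_mul_cancel, Matrix.SpecialLinearGroup.coe_one]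
    have e1 : ((h⁻¹ : SL(2, F)) : M2) * ((g : M2) * (h : M2)) = -(g : M2) := by
      rw [show (g : M2) * (h : M2) = -((h : M2) * (g : M2)) by rw [hp, neg_neg],
        Matrix.mul_neg, ← Matrix.mul_assoc, hhi, Matrix.one_mul]
    have t1 := congrArg Matrix.trace e1
    rw [Matrix.trace_mul_comm, Matrix.mul_assoc] at t1
    have hhi' : (h : M2) * ((h⁻¹ : SL(2, F)) : M2) = 1 := by
      rw [← Matrix.SpecialLinearGroup.coe_mul, mul_inv_cancel, Matrix.SpecialLinearGroup.coe_one]
    rw [hhi', Matrix.mul_one, Matrix.trace_neg] at t1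
    have t2 := congrArg Matrix.trace hp
    rw [Matrix.trace_neg, Matrix.trace_mul_comm] at t2
    have z : ∀ a : F, a = -a → a = 0 := fun a ha =>
      (mul_eq_zero.1 (show (2 : F) * a = 0 by linear_combination ha)).resolve_left h2
    exact Or.inr (Or.inl (Or.inr (Or.inl ⟨z _ t1, by
      show ((g * h : SL(2, F)) : M2).trace = 0
      rw [Matrix.SpecialLinearGroup.coe_mul]; exact z _ t2⟩)))
  · rw [← map_mul, proj_sq_eq_one hg, proj_sq_eq_one hh, proj_sq_eq_one hgh] at hs
    exact Or.inr (Or.inl hs)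
  · rw [← map_inv, ← map_mul, ← map_mul, proj_sq_eq_one hg, proj_sq_eq_one hh, proj_sq_eq_one hgh,
      proj_sq_eq_one hgih, proj_cube_eq_one hg, proj_cube_eq_one hh, proj_cube_eq_one hgh,
      tr_inv_mul] at hs
    exact Or.inr (Or.inr hs)

theorem shape_of_traces {g h : SL(2, F)}
    (hc : Dih (tr g) (tr h) (tr (g * h)) ∨ Tet (tr g) (tr h) (tr (g * h))) : Solv g h := by
  have sq : ∀ {x : SL(2, F)}, tr x = 0 → proj x ^ 2 = 1 := by
    intro x hx
    by_cases hn : Nonscalar (x : M2)
    · exact (proj_sq_eq_one hn).2 hx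
    · rw [proj_eq_one_iff.2 hn, one_pow]
  have cu : ∀ {x : SL(2, F)}, tr x ^ 2 = 1 → proj x ^ 3 = 1 := by
    intro x hx
    by_cases hn : Nonscalar (x : M2)
    · exact (proj_cube_eq_one hn).2 hx
    · rw [proj_eq_one_iff.2 hn, one_pow]
  rw [solv_iff_proj]
  apply PairShape.solvable
  rcases hc with hd | ht
  · refine Or.inr (Or.inl ?_)
    rw [← map_mul]
    exact hd.imp (And.imp sq sq) (Or.imp (And.imp sq sq) (And.imp sq sq))
  · refine Or.inr (Or.inr ?_)
    rw [← map_inv, ← map_mul, ← map_mul]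
    refine ht.imp (And.imp sq (And.imp cu cu)) (Or.imp (And.imp sq (And.imp cu cu))
      (And.imp cu (And.imp cu (Or.imp sq fun e => sq ?_))))
    rw [tr_inv_mul]; exact e

theorem not_solvable_psl {K : Type*} [Field K] [Fintype K] (h4 : 4 ≤ Fintype.card K) :
    ¬ Group.IsSolvable (Matrix.ProjectiveSpecialLinearGroup (Fin 2) K) := by
  intro hs
  haveI := Linear.isSimpleGroup_PSL_fin (F := K) 2 le_rfl fun _ => by rwa [Nat.card_eq_fintype_card]
  have hcomm := IsSimpleGroup.comm_iff_isSolvable.2 hs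
  letI : CommGroup (Matrix.ProjectiveSpecialLinearGroup (Fin 2) K) :=
    { (inferInstance : Group (Matrix.ProjectiveSpecialLinearGroup (Fin 2) K)) with mul_comm := hcomm }
  have hp : (Nat.card (Matrix.ProjectiveSpecialLinearGroup (Fin 2) K)).Prime :=
    IsSimpleGroup.prime_card
  have h1 := Linear.card_PSL_two_mul (F := K)
  set P := Nat.card (Matrix.ProjectiveSpecialLinearGroup (Fin 2) K)
  set n := Fintype.card K
  have hd : Nat.gcd 2 (n - 1) ≤ 2 := Nat.le_of_dvd (by norm_num) (Nat.gcd_dvd_left _ _)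
  -- the order is the product of three integers, two of them at least three
  have hn1 : (n - 1) ∣ Nat.gcd 2 (n - 1) * P := h1 ▸ ⟨n * (n + 1), by ring⟩
  have hn2 : (n + 1) ∣ Nat.gcd 2 (n - 1) * P := h1 ▸ ⟨n * (n - 1), by ring⟩
  have big : Nat.gcd 2 (n - 1) * P = n * (n - 1) * (n + 1) := h1
  have key : ∀ m : ℕ, 3 ≤ m → m ∣ Nat.gcd 2 (n - 1) * P → P ∣ m := by
    intro m hm hdv
    by_contra hP
    have := Nat.le_of_dvd (Nat.gcd_pos_of_pos_left _ (by norm_num))
      ((Nat.Coprime.symm (hp.coprime_iff_not_dvd.2 hP)).dvd_of_dvd_mul_right hdv)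
    omega
  have a := Nat.le_of_dvd (by omega) (key (n + 1) (by omega) hn2)
  have : n * (n - 1) * (n + 1) ≤ 2 * (n + 1) := by rw [← big]; exact Nat.mul_le_mul hd a
  have h12 : 12 ≤ n * (n - 1) := le_trans (by norm_num) (Nat.mul_le_mul h4 (show 3 ≤ n - 1 by omega))
  have := Nat.mul_le_mul_right (n + 1) h12
  omega

variable (p : ℕ) [Fact p.Prime] [CharP F p]

/-- A solvable two-generated subgroup: commuting, triangularisable, dihedral or tetrahedral. -/
theorem Solv.cases (h8 : p ≠ 2 → ¬ 8 ∣ Nat.card L2) {g h : SL(2, F)}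
    (hg : Nonscalar (g : M2)) (hs : Solv g h) :
    (g : M2) * (h : M2) = (h : M2) * (g : M2) ∨ Tri (tr g) (tr h) (tr (g * h)) ∨
      Dih (tr g) (tr h) (tr (g * h)) ∨ Tet (tr g) (tr h) (tr (g * h)) := by
  classical
  let ι := Matrix.ProjectiveSpecialLinearGroup.toPGL (n := Fin 2) (R := F)
  have hι : Function.Injective ι := Matrix.ProjectiveSpecialLinearGroup.toPGL_injective
  rw [solv_iff_proj] at hs
  set H := Subgroup.closure ({proj g, proj h} : Set L2) with hH
  set H' := H.map ι with hH'
  have e : H ≃* H' := H.equivMapOfInjective _ hι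
  haveI := hs
  haveI : Group.IsSolvable H' := Group.isSolvable_of_surjective (f := e.toMonoidHom) e.surjective
  have hgH : proj g ∈ H := Subgroup.subset_closure (Or.inl rfl)
  have hhH : proj h ∈ H := Subgroup.subset_closure (Or.inr rfl)
  have shape : (PairShape (⟨_, hgH⟩ : H) ⟨_, hhH⟩) →
      (g : M2) * (h : M2) = (h : M2) * (g : M2) ∨ Tri (tr g) (tr h) (tr (g * h)) ∨
      Dih (tr g) (tr h) (tr (g * h)) ∨ Tet (tr g) (tr h) (tr (g * h)) := fun hp => by
    have h' := commute_or_traces hg ((PairShape.map_iff H.subtype H.subtype_injective _ _).2 hp)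
    exact h'.imp id Or.inr
  rcases classifyF (K := AlgebraicClosure F) (p := p) H' with
    ⟨_, _, _, -, hc, -, -, -⟩ | ⟨_, _, _, n, -, -, -, -, -, -, ⟨iso⟩⟩ | ⟨x, hfix, -⟩ |
    ⟨-, -, ⟨iso⟩⟩ | ⟨hp2, hcard, -⟩ | ⟨-, -, ⟨iso⟩⟩ | ⟨F₀, k, h4, he⟩ | ⟨F₀, k, h4, -, he⟩
  · haveI := hc
    haveI : IsCyclic H := isCyclic_of_surjective e.symm e.symm.surjective
    refine shape (Or.inl ?_)
    obtain ⟨z, hz⟩ := IsCyclic.exists_generator (α := H)
    obtain ⟨i, hi⟩ := hz ⟨_, hgH⟩
    obtain ⟨j, hj⟩ := hz ⟨_, hhH⟩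
    rw [← hi, ← hj]
    exact ((Commute.refl z).zpow_zpow i j).eq
  · exact shape ((PairShape.map_iff (e.trans iso).toMonoidHom (e.trans iso).injective _ _).1
      (shape_dihedralGroup _ _))
  · refine Or.inr (Or.inl ?_)
    obtain ⟨m, hm⟩ := exists_move x
    induction m using ProjGenLinGroup.induction_on with | mk A =>
    have upper : ∀ s : SL(2, F), proj s ∈ H →
        ((A⁻¹ * Matrix.SpecialLinearGroup.toGL s * A : GL (Fin 2) F) : M2) 1 0 = 0 := by
      intro s hsH
      have h1 : ι (proj s) • x = x := hfix _ ⟨_, hsH, rfl⟩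
      rw [← hm, show ι (proj s) = ProjGenLinGroup.mk (Matrix.SpecialLinearGroup.toGL s) from rfl,
        MaxSub.Dickson.mk_smul, MaxSub.Dickson.mk_smul] at h1
      rw [← OnePoint.smul_infty_eq_self_iff, mul_smul, mul_smul, h1, inv_smul_smul]
    have ug := upper g hgH
    have uh := upper h hhH
    have trc : ∀ s : SL(2, F), tr s =
        ((A⁻¹ * Matrix.SpecialLinearGroup.toGL s * A : GL (Fin 2) F) : M2).trace := by
      intro s
      rw [Units.val_mul, Units.val_mul, Matrix.trace_mul_comm, ← Matrix.mul_assoc,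
        ← Units.val_mul, mul_inv_cancel, Units.val_one, Matrix.one_mul]
      rfl
    have det1 : ∀ s : SL(2, F),
        ((A⁻¹ * Matrix.SpecialLinearGroup.toGL s * A : GL (Fin 2) F) : M2).det = 1 := by
      intro s
      rw [Units.val_mul, Units.val_mul, Matrix.det_mul, Matrix.det_mul, mul_right_comm,
        ← Matrix.det_mul, ← Units.val_mul, inv_mul_cancel, Units.val_one, Matrix.det_one, one_mul]
      exact s.det_coe
    have hmul : A⁻¹ * Matrix.SpecialLinearGroup.toGL (g * h) * A =
        (A⁻¹ * Matrix.SpecialLinearGroup.toGL g * A) * (A⁻¹ * Matrix.SpecialLinearGroup.toGL h * A) := by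
      rw [map_mul]; group
    have dg := det1 g
    have dh := det1 h
    unfold Tri
    rw [trc g, trc h, trc (g * h), hmul]
    generalize A⁻¹ * Matrix.SpecialLinearGroup.toGL g * A = U at ug dg ⊢
    generalize A⁻¹ * Matrix.SpecialLinearGroup.toGL h * A = V at uh dh ⊢
    rw [Units.val_mul]
    rw [Matrix.det_fin_two, ug, mul_zero, sub_zero] at dg
    rw [Matrix.det_fin_two, uh, mul_zero, sub_zero] at dh
    simp only [Matrix.trace_fin_two, Matrix.mul_apply, Fin.sum_univ_two, ug, uh, zero_mul,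
      mul_zero, add_zero, zero_add]
    linear_combination (2 - (V 0 0 ^ 2 + V 1 1 ^ 2)) * dg + (2 - (U 0 0 ^ 2 + U 1 1 ^ 2)) * dh
  · exact shape ((PairShape.map_iff (e.trans iso).toMonoidHom (e.trans iso).injective _ _).1
      (shape_alt_four _ _))
  · exfalso
    refine h8 hp2 ((show 8 ∣ Nat.card H' from hcard ▸ by norm_num).trans ?_)
    rw [← Nat.card_congr e.toEquiv]
    exact Subgroup.card_subgroup_dvd_card H
  · exfalso
    haveI : Group.IsSolvable (alternatingGroup (Fin 5)) :=
      Group.isSolvable_of_surjective (f := iso.toMonoidHom) iso.surjective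
    have := IsSimpleGroup.comm_iff_isSolvable.2 this
      ⟨Equiv.swap 0 1 * Equiv.swap 1 2, by simp [Equiv.Perm.mem_alternatingGroup]⟩
      ⟨Equiv.swap 0 1 * Equiv.swap 1 3, by simp [Equiv.Perm.mem_alternatingGroup]⟩
    exact absurd (congrArg Subtype.val this) (by decide)
  all_goals
    exfalso
    have hle : (subPSL F₀).range ≤ H'.map (MulAut.conj k⁻¹).toMonoidHom := by
      refine le_trans ?_ he.ge
      first | exact subPSL_le_subPGL F₀ | exact le_rfl
    haveI : Group.IsSolvable (H'.map (MulAut.conj k⁻¹).toMonoidHom) :=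
      Group.isSolvable_of_surjective (MonoidHom.subgroupMap_surjective _ H')
    haveI : Group.IsSolvable (subPSL F₀).range :=
      Group.isSolvable_of_isSolvable_injective (f := Subgroup.inclusion hle) (Subgroup.inclusion_injective hle)
    haveI : Fintype F₀ := Fintype.ofFinite _
    refine not_solvable_psl (K := F₀) (by rwa [← Nat.card_eq_fintype_card]) ?_
    exact Group.isSolvable_of_isSolvable_injective (f := (subPSL F₀).rangeRestrict)
      (fun a b hab => subPSL_injective F₀ (congrArg Subtype.val hab))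

end Cfsg.Agent.SolubPSL
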