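import Mathlib

/-!
Two-generated solvable groups: small sufficient and necessary conditions in terms of powers of the
two generators and of their product.
-/

set_option autoImplicit false

namespace Cfsg.Agent.SolubPSL

open Subgroup

variable {G : Type*} [Group G]

theorem closure_pair_mul_right (x y : G) : closure ({x, x * y} : Set G) = closure {x, y} := by
  apply le_antisymm <;> rw [closure_le] <;> rintro z (rfl | rfl)
  · exact subset_closure (Or.inl rfl)
  · exact mul_mem (subset_closure (Or.inl rfl)) (subset_closure (Or.inr rfl))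
  · exact subset_closure (Or.inl rfl)
  · have h := mul_mem (inv_mem (subset_closure (Or.inl rfl) : x ∈ closure ({x, x * z} : Set G)))
      (subset_closure (Or.inr rfl) : x * z ∈ closure ({x, x * z} : Set G))
    simpa using h

theorem closure_pair_inv_left (x y : G) : closure ({x⁻¹, y} : Set G) = closure {x, y} := by
  apply le_antisymm <;> rw [closure_le] <;> rintro z (rfl | rfl)
  · exact inv_mem (subset_closure (Or.inl rfl))
  · exact subset_closure (Or.inr rfl)
  · have h := inv_mem (subset_closure (Or.inl rfl) : z⁻¹ ∈ closure ({z⁻¹, y} : Set G))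
    simpa using h
  · exact subset_closure (Or.inr rfl)

/-- A pair of elements normalising an abelian subgroup inside which their commutator lies
generates a solvable group. -/
theorem solvable_pair [Finite G] {x y : G} (S : Set G) (hc : ∀ a ∈ S, ∀ b ∈ S, a * b = b * a)
    (hS : S ⊆ closure ({x, y} : Set G)) (hx : ∀ a ∈ S, x * a * x⁻¹ ∈ closure S)
    (hy : ∀ a ∈ S, y * a * y⁻¹ ∈ closure S) (hcomm : x * y * x⁻¹ * y⁻¹ ∈ closure S) :
    Group.IsSolvable ↥(closure ({x, y} : Set G)) := by
  set H := closure ({x, y} : Set G) with hH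
  set N := closure S with hN
  have hNH : N ≤ H := (closure_le _).2 hS
  have key : ∀ g : G, (∀ a ∈ S, g * a * g⁻¹ ∈ N) → g ∈ normalizer (N : Set G) := by
    intro g hg
    have hle : N.map (MulAut.conj g).toMonoidHom ≤ N := by
      rw [hN, MonoidHom.map_closure, closure_le]
      rintro _ ⟨a, ha, rfl⟩
      exact hg a ha
    have heq : N.map (MulAut.conj g).toMonoidHom = N := by
      refine eq_of_le_of_card_ge hle (le_of_eq ?_)
      exact Nat.card_congr (N.equivMapOfInjective _ (MulAut.conj g).injective).toEquiv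
    rw [mem_normalizer_iff]
    intro n
    constructor
    · intro hn
      exact hle ⟨n, hn, rfl⟩
    · intro hn
      rw [← heq] at hn
      obtain ⟨m, hm, he⟩ := hn
      have he' : g * m * g⁻¹ = g * n * g⁻¹ := he
      rw [mul_left_inj, mul_right_inj] at he'
      exact he' ▸ hm
  have hHN : H ≤ normalizer (N : Set G) := by
    rw [hH, closure_le]
    rintro z (rfl | rfl)
    exacts [key _ hx, key _ hy]
  have : (N.subgroupOf H).Normal := by
    rw [normal_subgroupOf_iff_le_normalizer hNH]; exact hHN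
  let π := QuotientGroup.mk' (N.subgroupOf H)
  have hxH : x ∈ H := subset_closure (Or.inl rfl)
  have hyH : y ∈ H := subset_closure (Or.inr rfl)
  let X : H := ⟨x, hxH⟩
  let Y : H := ⟨y, hyH⟩
  have hXY : closure ({X, Y} : Set H) = ⊤ := by
    apply map_injective H.subtype_injective
    rw [MonoidHom.map_closure, ← MonoidHom.range_eq_map, range_subtype, Set.image_pair]
    rfl
  have hq : ∀ a b : H ⧸ N.subgroupOf H, a * b = b * a := by
    have hgen : closure ({π X, π Y} : Set (H ⧸ N.subgroupOf H)) = ⊤ := by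
      rw [← Set.image_pair, ← MonoidHom.map_closure, hXY,
        Subgroup.map_top_of_surjective _ (QuotientGroup.mk'_surjective _)]
    have hXY' : π X * π Y = π Y * π X := by
      have h1 : π (X * Y * X⁻¹ * Y⁻¹) = 1 := by
        rw [QuotientGroup.mk'_apply, QuotientGroup.eq_one_iff, mem_subgroupOf]
        exact hcomm
      rw [map_mul, map_mul, map_mul, map_inv, map_inv] at h1
      rwa [mul_inv_eq_one, mul_inv_eq_iff_eq_mul] at h1
    intro a b
    have hab := isMulCommutative_closure (k := ({π X, π Y} : Set (H ⧸ N.subgroupOf H)))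
      (by rintro u (rfl | rfl) v (rfl | rfl) <;> first | rfl | exact hXY' | exact hXY'.symm)
    have ha : a ∈ closure ({π X, π Y} : Set (H ⧸ N.subgroupOf H)) := by rw [hgen]; trivial
    have hb : b ∈ closure ({π X, π Y} : Set (H ⧸ N.subgroupOf H)) := by rw [hgen]; trivial
    exact congrArg Subtype.val (hab.is_comm.comm (⟨a, ha⟩ : Subgroup.closure _) ⟨b, hb⟩)
  have hNc : IsMulCommutative ↥N := isMulCommutative_closure hc
  have hsolN : Group.IsSolvable (N.subgroupOf H) := Group.isSolvable_of_comm fun a b => by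
    apply Subtype.ext
    apply Subtype.ext
    have h := congrArg Subtype.val
      (hNc.is_comm.comm (⟨_, mem_subgroupOf.1 a.2⟩ : N) ⟨_, mem_subgroupOf.1 b.2⟩)
    exact h
  have hsolQ : Group.IsSolvable (H ⧸ N.subgroupOf H) := Group.isSolvable_of_comm hq
  exact Group.isSolvable_of_ker_le_range (N.subgroupOf H).subtype π
    (by rw [QuotientGroup.ker_mk', range_subtype])

theorem solvable_commute [Finite G] {x y : G} (h : x * y = y * x) :
    Group.IsSolvable ↥(closure ({x, y} : Set G)) := by
  refine solvable_pair ∅ (by simp) (by simp) (by simp) (by simp) ?_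
  rw [h]; group; exact one_mem _

theorem solvable_dihedral [Finite G] {x y : G} (hx : x ^ 2 = 1) (hy : y ^ 2 = 1) :
    Group.IsSolvable ↥(closure ({x, y} : Set G)) := by
  have hx' : x⁻¹ = x := inv_eq_of_mul_eq_one_right (by rw [← pow_two, hx])
  have hy' : y⁻¹ = y := inv_eq_of_mul_eq_one_right (by rw [← pow_two, hy])
  have hyx : y * x ∈ closure ({x * y} : Set G) := by
    have : y * x = (x * y)⁻¹ := by rw [mul_inv_rev, hx', hy']
    rw [this]; exact inv_mem (subset_closure rfl)
  refine solvable_pair {x * y} (by simp) ?_ ?_ ?_ ?_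
  · rintro _ rfl
    exact mul_mem (subset_closure (Or.inl rfl)) (subset_closure (Or.inr rfl))
  · rintro _ rfl
    have : x * (x * y) * x⁻¹ = y * x := by
      rw [hx', ← mul_assoc x x y, ← pow_two, hx, one_mul]
    rw [this]; exact hyx
  · rintro _ rfl
    have : y * (x * y) * y⁻¹ = y * x := by group
    rw [this]; exact hyx
  · rw [hx', hy', show x * y * x * y = (x * y) * (x * y) by group]
    exact mul_mem (subset_closure rfl) (subset_closure rfl)

theorem solvable_tetra [Finite G] {x y : G} (hx : x ^ 2 = 1) (hy : y ^ 3 = 1)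
    (hxy : (x * y) ^ 3 = 1) : Group.IsSolvable ↥(closure ({x, y} : Set G)) := by
  have hx' : x⁻¹ = x := inv_eq_of_mul_eq_one_right (by rw [← pow_two, hx])
  set a := y * x * y⁻¹ with ha
  set b := y * a * y⁻¹ with hb
  have hxx : x * x = 1 := by rw [← pow_two, hx]
  have haa : a * a = 1 := by
    rw [ha, show y * x * y⁻¹ * (y * x * y⁻¹) = y * (x * x) * y⁻¹ by group, hxx]; group
  have hbb : b * b = 1 := by
    rw [hb, show y * a * y⁻¹ * (y * a * y⁻¹) = y * (a * a) * y⁻¹ by group, haa]; group
  have hprod : x * a * b = 1 := by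
    have : (x * y) ^ 3 = x * a * b * y ^ 3 := by
      simp only [hb, ha, pow_succ, pow_zero, one_mul]; group
    rwa [hxy, hy, mul_one, eq_comm] at this
  have hbeq : b = a * x := by
    have h1 : b = (x * a)⁻¹ := eq_inv_of_mul_eq_one_right hprod
    rw [h1, mul_inv_rev, hx', inv_eq_of_mul_eq_one_right haa]
  have hcom : a * x = x * a := by
    have h2 : (a * x) * (a * x) = 1 := hbeq ▸ hbb
    calc a * x = (a * x)⁻¹ := (inv_eq_of_mul_eq_one_right h2).symm
      _ = x * a := by rw [mul_inv_rev, hx', inv_eq_of_mul_eq_one_right haa]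
  have hmx : x ∈ closure ({x, a} : Set G) := subset_closure (Or.inl rfl)
  have hma : a ∈ closure ({x, a} : Set G) := subset_closure (Or.inr rfl)
  refine solvable_pair {x, a} ?_ ?_ ?_ ?_ ?_
  · rintro u (rfl | rfl) v (rfl | rfl) <;> first | rfl | exact hcom | exact hcom.symm
  · rintro u (rfl | rfl)
    · exact subset_closure (Or.inl rfl)
    · exact mul_mem (mul_mem (subset_closure (Or.inr rfl)) (subset_closure (Or.inl rfl)))
        (inv_mem (subset_closure (Or.inr rfl)))
  · rintro u (rfl | rfl)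
    · simpa using hmx
    · rw [← hcom]; simpa using hma
  · rintro u (rfl | rfl)
    · exact hma
    · show b ∈ _
      rw [hbeq]; exact mul_mem hma hmx
  · rw [show x * y * x⁻¹ * y⁻¹ = x * (y * x⁻¹ * y⁻¹) by group, hx']
    exact mul_mem hmx hma

theorem solvable_of_two_sq [Finite G] {x y : G}
    (h : (x ^ 2 = 1 ∧ y ^ 2 = 1) ∨ (x ^ 2 = 1 ∧ (x * y) ^ 2 = 1) ∨ (y ^ 2 = 1 ∧ (x * y) ^ 2 = 1)) :
    Group.IsSolvable ↥(closure ({x, y} : Set G)) := by
  rcases h with ⟨h1, h2⟩ | ⟨h1, h2⟩ | ⟨h1, h2⟩
  · exact solvable_dihedral h1 h2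
  · rw [← closure_pair_mul_right]; exact solvable_dihedral h1 h2
  · have h3 : (y * x) ^ 2 = 1 := by
      rw [show y * x = y * (x * y) * y⁻¹ by group, conj_pow, h2]; group
    rw [Set.pair_comm, ← closure_pair_mul_right]; exact solvable_dihedral h1 h3

theorem solvable_of_tetra_cases [Finite G] {x y : G}
    (h : (x ^ 2 = 1 ∧ y ^ 3 = 1 ∧ (x * y) ^ 3 = 1) ∨ (y ^ 2 = 1 ∧ x ^ 3 = 1 ∧ (x * y) ^ 3 = 1) ∨
      (x ^ 3 = 1 ∧ y ^ 3 = 1 ∧ ((x * y) ^ 2 = 1 ∨ (x⁻¹ * y) ^ 2 = 1))) :
    Group.IsSolvable ↥(closure ({x, y} : Set G)) := by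
  rcases h with ⟨h1, h2, h3⟩ | ⟨h1, h2, h3⟩ | ⟨h1, h2, h3⟩
  · exact solvable_tetra h1 h2 h3
  · have h4 : (y * x) ^ 3 = 1 := by
      rw [show y * x = y * (x * y) * y⁻¹ by group, conj_pow, h3]; group
    rw [Set.pair_comm]; exact solvable_tetra h1 h2 h4
  · have main : ∀ u : G, u ^ 3 = 1 → (u * y) ^ 2 = 1 →
        Group.IsSolvable ↥(closure ({u, y} : Set G)) := by
      intro u hu huy
      have hc : closure ({u * y, y⁻¹} : Set G) = closure {u, y} := by
        rw [Set.pair_comm (u * y), closure_pair_inv_left, Set.pair_comm u]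
        apply le_antisymm <;> rw [closure_le] <;> rintro z (rfl | rfl)
        · exact subset_closure (Or.inl rfl)
        · exact mul_mem (subset_closure (Or.inr rfl)) (subset_closure (Or.inl rfl))
        · exact subset_closure (Or.inl rfl)
        · have h := mul_mem (subset_closure (Or.inr rfl) : z * y ∈ closure ({y, z * y} : Set G))
            (inv_mem (subset_closure (Or.inl rfl) : y ∈ closure ({y, z * y} : Set G)))
          simpa using h
      rw [← hc]
      refine solvable_tetra huy ?_ ?_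
      · rw [inv_pow, h2, inv_one]
      · simpa using hu
    rcases h3 with h3 | h3
    · exact main x h1 h3
    · rw [← closure_pair_inv_left]
      exact main x⁻¹ (by rw [inv_pow, h1, inv_one]) h3

/-- What two generators of a solvable group from Dickson's list look like. -/
def PairShape (x y : G) : Prop :=
  x * y = y * x ∨
  ((x ^ 2 = 1 ∧ y ^ 2 = 1) ∨ (x ^ 2 = 1 ∧ (x * y) ^ 2 = 1) ∨ (y ^ 2 = 1 ∧ (x * y) ^ 2 = 1)) ∨
  ((x ^ 2 = 1 ∧ y ^ 3 = 1 ∧ (x * y) ^ 3 = 1) ∨ (y ^ 2 = 1 ∧ x ^ 3 = 1 ∧ (x * y) ^ 3 = 1) ∨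
    (x ^ 3 = 1 ∧ y ^ 3 = 1 ∧ ((x * y) ^ 2 = 1 ∨ (x⁻¹ * y) ^ 2 = 1)))

theorem PairShape.solvable [Finite G] {x y : G} (h : PairShape x y) :
    Group.IsSolvable ↥(closure ({x, y} : Set G)) := by
  rcases h with h | h | h
  exacts [solvable_commute h, solvable_of_two_sq h, solvable_of_tetra_cases h]

theorem PairShape.map_iff {H : Type*} [Group H] (f : G →* H) (hf : Function.Injective f)
    (x y : G) : PairShape (f x) (f y) ↔ PairShape x y := by
  simp only [PairShape, ← map_mul, ← map_inv, ← map_pow, map_eq_one_iff f hf, hf.eq_iff]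

theorem shape_dihedralGroup {k : ℕ} (x y : DihedralGroup k) : PairShape x y := by
  rcases x with i | i <;> rcases y with j | j
  · exact Or.inl (by rw [DihedralGroup.r_mul_r, DihedralGroup.r_mul_r, add_comm])
  · exact Or.inr (Or.inl (Or.inr (Or.inr ⟨by rw [pow_two, DihedralGroup.sr_mul_self],
      by rw [DihedralGroup.r_mul_sr, pow_two, DihedralGroup.sr_mul_self]⟩)))
  · exact Or.inr (Or.inl (Or.inr (Or.inl ⟨by rw [pow_two, DihedralGroup.sr_mul_self],
      by rw [DihedralGroup.sr_mul_r, pow_two, DihedralGroup.sr_mul_self]⟩)))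
  · exact Or.inr (Or.inl (Or.inl ⟨by rw [pow_two, DihedralGroup.sr_mul_self],
      by rw [pow_two, DihedralGroup.sr_mul_self]⟩))

theorem shape_alt_four_aux : ∀ x y : Equiv.Perm (Fin 4), Equiv.Perm.sign x = 1 →
    Equiv.Perm.sign y = 1 → x * y = y * x ∨
    ((x * x = 1 ∧ y * y * y = 1 ∧ x * y * (x * y) * (x * y) = 1) ∨
     (y * y = 1 ∧ x * x * x = 1 ∧ x * y * (x * y) * (x * y) = 1) ∨
     (x * x * x = 1 ∧ y * y * y = 1 ∧
      (x * y * (x * y) = 1 ∨ x * x * y * (x * x * y) = 1))) := by
  decide +kernel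

theorem shape_alt_four (x y : alternatingGroup (Fin 4)) : PairShape x y := by
  rw [← PairShape.map_iff (alternatingGroup (Fin 4)).subtype Subtype.val_injective]
  rcases shape_alt_four_aux x y x.2 y.2 with h | h
  · exact Or.inl h
  · refine Or.inr (Or.inr ?_)
    simp only [Subgroup.coe_subtype, pow_succ, pow_zero, one_mul]
    rcases h with h | h | ⟨h1, h2, h3 | h3⟩
    · exact Or.inl h
    · exact Or.inr (Or.inl h)
    · exact Or.inr (Or.inr ⟨h1, h2, Or.inl h3⟩)
    · refine Or.inr (Or.inr ⟨h1, h2, Or.inr ?_⟩)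
      rw [inv_eq_of_mul_eq_one_left h1]
      exact h3

end Cfsg.Agent.SolubPSL
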